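import Cfsg.Agent.H376.Rg920.ExtC

/-!
# S3691, piece B (`StmtExt`) for helper920, IV : the Galois part (helper376)
-/

set_option autoImplicit false

open Cfsg Matrix Module

namespace Cfsg.Agent.H376.Rg920

universe u v w

section gal

variable {F : Type u} {V : Type v} [Field F] [AddCommGroup V] [Module F V]

/-- conjugation by `g` -/
def conj (g : V ≃ₗ[F] V) : Module.End F V →ₐ[F] Module.End F V := (g.conjAlgEquiv F).toAlgHom

theorem conj_apply (g : V ≃ₗ[F] V) (a : Module.End F V) (v : V) : conj g a v = g (a (g.symm v)) := rfl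

theorem conj_coe (g y : V ≃ₗ[F] V) : conj g (y : V →ₗ[F] V) = ((g * y * g⁻¹ : V ≃ₗ[F] V) : V →ₗ[F] V) := rfl

theorem conj_mem {y g : V ≃ₗ[F] V} (hfin : IsOfFinOrder y) (hg : g * y * g⁻¹ ∈ Subgroup.zpowers y) {a : Module.End F V}
    (ha : a ∈ AY y) : conj g a ∈ AY y := by
  have h2 : (AY y) ≤ (AY y).comap (conj g) := by
    refine Algebra.adjoin_le ?_
    rintro _ rfl
    rw [SetLike.mem_coe, Subalgebra.mem_comap, conj_coe]
    rw [← hfin.mem_powers_iff_mem_zpowers] at hg
    obtain ⟨k, hk⟩ := hg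
    change y ^ k = _ at hk
    rw [← hk, coe_pow]
    exact (AY y).pow_mem (y_mem y) k
  exact h2 ha

/-- the action of `Γ` on `F[y]` -/
def theta {y : V ≃ₗ[F] V} (hfin : IsOfFinOrder y) (Γ : Subgroup (V ≃ₗ[F] V)) (hΓ : ∀ g ∈ Γ, g * y * g⁻¹ ∈ Subgroup.zpowers y) :
    Γ →* ((AY y) →ₐ[F] (AY y)) where
  toFun := fun g => ((conj (g : V ≃ₗ[F] V)).comp (AY y).val).codRestrict (AY y) fun a => conj_mem hfin (hΓ g g.2) a.2
  map_one' := rfl
  map_mul' := fun _ _ => rfl

theorem theta_apply {y : V ≃ₗ[F] V} (hfin : IsOfFinOrder y) (Γ : Subgroup (V ≃ₗ[F] V))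
    (hΓ : ∀ g ∈ Γ, g * y * g⁻¹ ∈ Subgroup.zpowers y) (g : Γ) (a : AY y) :
    ((theta hfin Γ hΓ g a : AY y) : Module.End F V) = conj (g : V ≃ₗ[F] V) a := rfl

theorem index_dvd [Finite F] [FiniteDimensional F V] {E : Type w} [Field E] [Algebra F E] {y : V ≃ₗ[F] V} (e : E ≃ₐ[F] (AY y))
    {m : ℕ} (hE : finrank F E = m) (hfin : IsOfFinOrder y) (Γ : Subgroup (V ≃ₗ[F] V))
    (hΓ : ∀ g ∈ Γ, g * y * g⁻¹ ∈ Subgroup.zpowers y) :
    Nat.card Γ ∣ Nat.card (Γ ⊓ Subgroup.centralizer ({y} : Set (V ≃ₗ[F] V)) : Subgroup (V ≃ₗ[F] V)) * m := by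
  classical
  have : FiniteDimensional F E := by
    exact Module.Finite.equiv e.symm.toLinearEquiv
  have : Finite E := Module.finite_of_finite F
  let Θ : Γ →* ((AY y) ≃ₐ[F] (AY y)) := ((AlgEquiv.algHomUnitsEquiv F (AY y)).toMonoidHom).comp (MonoidHom.toHomUnits (theta hfin Γ hΓ))
  have hΘ : ∀ g a, ((Θ g a : AY y) : Module.End F V) = conj (g : V ≃ₗ[F] V) a := fun g a => rfl
  have hker : Θ.ker = (Subgroup.centralizer ({y} : Set (V ≃ₗ[F] V))).subgroupOf Γ := by
    ext g
    rw [MonoidHom.mem_ker, Subgroup.mem_subgroupOf, Subgroup.mem_centralizer_iff]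
    constructor
    · rintro h _ rfl
      have h1 := hΘ g ⟨_, y_mem _⟩
      rw [h] at h1
      change ((_ : V ≃ₗ[F] V) : V →ₗ[F] V) = _ at h1
      rw [conj_coe] at h1
      have h2 := LinearEquiv.toLinearMap_injective h1
      rw [eq_mul_inv_iff_mul_eq] at h2
      exact h2
    · intro h
      have h1 := h y rfl
      ext a : 1
      apply Subtype.ext
      rw [hΘ]
      ext v
      rw [conj_apply]
      have h2 : (((g : V ≃ₗ[F] V) : V →ₗ[F] V) : Module.End F V) * (y : V →ₗ[F] V) = (y : V →ₗ[F] V) * ((g : V ≃ₗ[F] V) : V →ₗ[F] V) := by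
        ext v
        exact (congrArg (fun (X : V ≃ₗ[F] V) => X v) h1).symm
      have h3 := congrArg (fun (X : Module.End F V) => X ((g : V ≃ₗ[F] V).symm v)) (comm_of_mem h2 a.2)
      change (g : V ≃ₗ[F] V) ((a : Module.End F V) ((g : V ≃ₗ[F] V).symm v)) =
        (a : Module.End F V) ((g : V ≃ₗ[F] V) ((g : V ≃ₗ[F] V).symm v)) at h3
      rw [h3, LinearEquiv.apply_symm_apply]
      rfl
  have h1 : Nat.card Θ.ker = Nat.card (Γ ⊓ Subgroup.centralizer ({y} : Set (V ≃ₗ[F] V)) : Subgroup (V ≃ₗ[F] V)) := by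
    rw [hker, ← Subgroup.inf_subgroupOf_left]
    exact Nat.card_congr (Subgroup.subgroupOfEquivOfLe inf_le_left).toEquiv
  have h2 : Nat.card ((AY y) ≃ₐ[F] (AY y)) = m := by
    rw [← Nat.card_congr (AlgEquiv.autCongr e).toEquiv, ← hE]
    exact IsGalois.card_aut_eq_finrank F E
  have h3 : Nat.card Θ.range ∣ m := by
    rw [← h2]
    exact Subgroup.card_subgroup_dvd_card _
  have h4 : Nat.card Γ = Nat.card Θ.ker * Nat.card Θ.range := by
    rw [← Subgroup.card_mul_index Θ.ker, Subgroup.index_ker]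
  rw [h4, h1]
  exact Nat.mul_dvd_mul_left _ h3

/-- form and polynomial -/
theorem form_aeval {y : V ≃ₗ[F] V} {B : LinearMap.BilinForm F V} (hB : ∀ u w, B (y u) (y w) = B u w) (P : Polynomial F) (u w : V) :
    B (Polynomial.aeval (y : Module.End F V) P u) w = B u (Polynomial.aeval ((y⁻¹ : V ≃ₗ[F] V) : Module.End F V) P w) := by
  have h0 : ∀ u w, B (y u) w = B u ((y⁻¹ : V ≃ₗ[F] V) w) := by
    intro u w
    rw [← hB u]
    have : y ((y⁻¹ : V ≃ₗ[F] V) w) = w := y.apply_symm_apply w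
    rw [this]
  induction P using Polynomial.induction_on generalizing u w with
  | C a =>
    rw [Polynomial.aeval_C, Polynomial.aeval_C, Module.algebraMap_end_apply, Module.algebraMap_end_apply, map_smul, map_smul]
    rfl
  | add P Q hP hQ =>
    rw [map_add, map_add, LinearMap.add_apply, LinearMap.add_apply, map_add, map_add, LinearMap.add_apply, hP, hQ]
  | monomial n a h =>
    rw [pow_succ, ← mul_assoc]
    generalize Polynomial.C a * Polynomial.X ^ n = Q at h ⊢
    rw [mul_comm Q, map_mul, map_mul, Polynomial.aeval_X, Polynomial.aeval_X]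
    change B (y (Polynomial.aeval (y : Module.End F V) Q u)) w = _
    rw [h0, h]
    have h1 : (Polynomial.aeval ((y⁻¹ : V ≃ₗ[F] V) : Module.End F V) Q) *
      ((y⁻¹ : V ≃ₗ[F] V) : Module.End F V) = ((y⁻¹ : V ≃ₗ[F] V) : Module.End F V) *
      (Polynomial.aeval ((y⁻¹ : V ≃ₗ[F] V) : Module.End F V) Q) := by
      have h2 : Polynomial.aeval ((y⁻¹ : V ≃ₗ[F] V) : Module.End F V) (Polynomial.X : Polynomial F) = ((y⁻¹ : V ≃ₗ[F] V) : Module.End F V) :=
        Polynomial.aeval_X _
      have h3 : Polynomial.aeval ((y⁻¹ : V ≃ₗ[F] V) : Module.End F V) (Q * Polynomial.X) =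
        Polynomial.aeval ((y⁻¹ : V ≃ₗ[F] V) : Module.End F V) (Polynomial.X * Q) := by rw [mul_comm]
      rw [map_mul, map_mul, h2] at h3
      exact h3
    exact congrArg (B u) (congrArg (fun (X : Module.End F V) => X w) h1)

theorem even_of_form [Finite F] [FiniteDimensional F V] {E : Type w} [Field E] [Algebra F E] {y : V ≃ₗ[F] V} (j : E →ₐ[F] Module.End F V)
    (hj : ∀ a, a ∈ AY y → ∃ e, j e = a) (hj2 : ∀ e, j e ∈ AY y)
    {m r : ℕ} (hE : finrank F E = m) (hm : 0 < m) (hr : r.Prime) (hr2 : r ≠ 2) (hy : orderOf y = r)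
    {B : LinearMap.BilinForm F V} (hBn : B.Nondegenerate) (hB : ∀ u w, B (y u) (y w) = B u w) : Even m := by
  classical
  have : FiniteDimensional F E := FiniteDimensional.of_finrank_pos (by rw [hE]; exact hm)
  have : Finite E := Module.finite_of_finite F
  have hfin : IsOfFinOrder y := orderOf_pos_iff.1 (by rw [hy]; exact hr.pos)
  have hV : Nontrivial V := by
    by_contra hcon
    rw [not_nontrivial_iff_subsingleton] at hcon
    have h1 : y = 1 := by
      ext v
      exact Subsingleton.elim _ _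
    rw [h1, orderOf_one] at hy
    exact hr.one_lt.ne hy
  have hinj : Function.Injective j := j.toRingHom.injective
  have hyi : ((y⁻¹ : V ≃ₗ[F] V) : Module.End F V) ∈ AY y := by
    have h1 : y⁻¹ ∈ Subgroup.zpowers y := Subgroup.inv_mem _ (Subgroup.mem_zpowers y)
    rw [← hfin.mem_powers_iff_mem_zpowers] at h1
    obtain ⟨k, hk⟩ := h1
    change y ^ k = _ at hk
    rw [← hk, coe_pow]
    exact (AY y).pow_mem (y_mem y) k
  obtain ⟨e, he⟩ := hj _ (y_mem y)
  obtain ⟨e', he'⟩ := hj _ hyi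
  have hee : e * e' = 1 := by
    apply hinj
    rw [map_mul, he, he', map_one]
    ext v
    exact y.apply_symm_apply v
  -- `y⁻¹` is a root of the minimal polynomial of `y`
  have h1 : Polynomial.aeval e' (minpoly F e) = 0 := by
    apply hinj
    rw [← Polynomial.aeval_algHom_apply, he', map_zero]
    have h2 : Polynomial.aeval (y : Module.End F V) (minpoly F e) = 0 := by
      rw [← he, Polynomial.aeval_algHom_apply, minpoly.aeval, map_zero]
    ext w
    rw [LinearMap.zero_apply]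
    refine hBn.2 _ fun u => ?_
    rw [← form_aeval hB, h2, LinearMap.zero_apply, map_zero, LinearMap.zero_apply]
  have h3 : IsConjRoot F e e' := (isConjRoot_iff_aeval_eq_zero (Algebra.IsIntegral.isIntegral e)).2 h1
  obtain ⟨τ, hτ⟩ := (isConjRoot_iff_exists_algEquiv.1 h3)
  have he0 : e ≠ 0 := left_ne_zero_of_mul_eq_one hee
  have hee' : e' = e⁻¹ := eq_inv_of_mul_eq_one_right hee
  have hτ2 : τ e = e' := by
    have h4 : τ e * τ e' = 1 := by rw [← map_mul, hee, map_one]
    rw [hτ] at h4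
    rw [hee']
    exact eq_inv_of_mul_eq_one_left h4
  have htop : ∀ x : E, x ∈ Algebra.adjoin F {e} := by
    intro x
    have h4 : j x ∈ (Algebra.adjoin F {e}).map j := by
      rw [AlgHom.map_adjoin, Set.image_singleton, he]
      exact hj2 x
    obtain ⟨x', hx', hxx⟩ := h4
    have h5 : x' = x := hinj hxx
    rw [← h5]
    exact hx'
  have hsq : τ ^ 2 = 1 := by
    have h4 : Algebra.adjoin F {e} ≤ AlgHom.equalizer ((τ * τ : E ≃ₐ[F] E) : E →ₐ[F] E) (AlgHom.id F E) := by
      refine Algebra.adjoin_le ?_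
      rintro _ rfl
      rw [SetLike.mem_coe, AlgHom.mem_equalizer]
      change τ (τ _) = _
      rw [hτ2, hτ]
      rfl
    ext x
    rw [pow_two]
    exact h4 (htop x)
  have hne : τ ≠ 1 := by
    intro h
    rw [h] at hτ2
    change e = e' at hτ2
    have h4 : y ^ 2 = 1 := by
      have h5 : (y : Module.End F V) = ((y⁻¹ : V ≃ₗ[F] V) : Module.End F V) := by rw [← he, ← he', ← hτ2]
      have h6 : y = y⁻¹ := LinearEquiv.toLinearMap_injective h5
      rw [pow_two]
      nth_rewrite 2 [h6]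
      exact mul_inv_cancel y
    have h5 := orderOf_dvd_of_pow_eq_one h4
    rw [hy] at h5
    exact hr2 ((Nat.prime_dvd_prime_iff_eq hr Nat.prime_two).1 h5)
  have h6 : orderOf τ = 2 := orderOf_eq_prime hsq hne
  have h7 : orderOf τ ∣ Nat.card (E ≃ₐ[F] E) := orderOf_dvd_natCard τ
  have h8 : Nat.card (E ≃ₐ[F] E) = finrank F E := IsGalois.card_aut_eq_finrank F E
  rw [h6, h8, hE] at h7
  exact even_iff_two_dvd.2 h7

end gal

end Cfsg.Agent.H376.Rg920
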