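import Cfsg.Agent.H920.Rg.StmtA
import Cfsg.Agent.H376.Rg920.ExtD

/-!
# S3691, piece B (`StmtExt`) for helper920, V : assembly (helper376)
-/

set_option autoImplicit false

open Cfsg Matrix Module

namespace Cfsg.Agent.H376.Rg920

universe u v w

theorem ext : H920.Rg.StmtExt.{u, v} := by
  intro F V _ _ _ _ _ p f m r hp hF hr ho hf hm hV y g hy hfix hc hg
  have H : Cfg F V p f m r y g := ⟨inferInstance, inferInstance, hp, hF, hr, ho, hf, hm, hV, hy, hfix, hc, hg⟩
  let _ : Field (AY y) := H.isField.toField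
  have hfin : IsOfFinOrder y := orderOf_pos_iff.1 (by rw [hy]; exact hr.pos)
  have hE := H.finrank_AY
  have : FiniteDimensional F (AY y) := FiniteDimensional.of_finrank_pos (by rw [hE]; exact hm)
  have : Finite (AY y) := Module.finite_of_finite F
  let _ : Fintype (AY y) := Fintype.ofFinite _
  refine ⟨?_, ?_, ?_⟩
  · obtain ⟨φ, h1, h2⟩ := embed (E := AY y) (AY y).val (fun e => e.2) ⟨⟨_, y_mem y⟩, rfl⟩ hm hE hV
    refine ⟨AY y, inferInstance, inferInstance, φ, ?_, h1, ?_, h2⟩
    · have := H.charP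
      exact charP_of_injective_algebraMap (FaithfulSMul.algebraMap_injective F (AY y)) p
    · rw [Module.natCard_eq_pow_finrank (K := F), hF, hE, ← pow_mul]
  · intro Γ hΓ
    exact index_dvd (E := AY y) AlgEquiv.refl hE hfin Γ hΓ
  · intro B hBn hB hr2
    exact even_of_form (E := AY y) (AY y).val (fun a ha => ⟨⟨a, ha⟩, rfl⟩) (fun e => e.2) hE hm hr hr2 hy hBn hB

end Cfsg.Agent.H376.Rg920
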