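import Cfsg.Agent.H920.Rg.StmtA

/-!
# S3691, piece B (`StmtExt`) for helper920 (helper376)
-/

set_option autoImplicit false

open Cfsg Matrix Module

namespace Cfsg.Agent.H376.Rg920

universe u v w

section basic

variable {F : Type u} {V : Type v} [Field F] [AddCommGroup V] [Module F V]

/-- the algebra `F[y]` -/
abbrev AY (y : V ≃ₗ[F] V) : Subalgebra F (Module.End F V) := Algebra.adjoin F {(y : V →ₗ[F] V)}

theorem y_mem (y : V ≃ₗ[F] V) : (y : V →ₗ[F] V) ∈ AY y := Algebra.subset_adjoin rfl

theorem comm_of_mem {y : V ≃ₗ[F] V} {X : Module.End F V} (hX : X * (y : V →ₗ[F] V) = (y : V →ₗ[F] V) * X)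
    {a : Module.End F V} (ha : a ∈ AY y) : X * a = a * X := by
  have h1 : a ∈ Subalgebra.centralizer F {X} := by
    have h2 : AY y ≤ Subalgebra.centralizer F {X} := by
      refine Algebra.adjoin_le ?_
      rintro _ rfl
      rw [SetLike.mem_coe, Subalgebra.mem_centralizer_iff]
      rintro _ rfl
      exact hX
    exact h2 ha
  rw [Subalgebra.mem_centralizer_iff] at h1
  exact h1 X rfl

theorem comm_AY {y : V ≃ₗ[F] V} {a b : Module.End F V} (ha : a ∈ AY y) (hb : b ∈ AY y) : a * b = b * a :=
  comm_of_mem (comm_of_mem (X := (y : V →ₗ[F] V)) rfl ha).symm hb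

theorem inv_of_mem {y : V ≃ₗ[F] V} {U : Submodule F V} (hU : ∀ v ∈ U, y v ∈ U) {a : Module.End F V} (ha : a ∈ AY y) :
    ∀ v ∈ U, a v ∈ U := by
  induction ha using Algebra.adjoin_induction with
  | mem x hx =>
    rw [Set.mem_singleton_iff] at hx
    subst hx
    exact hU
  | algebraMap c =>
    intro v hv
    rw [Module.algebraMap_end_apply]
    exact U.smul_mem c hv
  | add x y _ _ hx hy => exact fun v hv => U.add_mem (hx v hv) (hy v hv)
  | mul x y _ _ hx hy => exact fun v hv => hx _ (hy v hv)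

/-- invariant subspaces have dimension divisible by `m` -/
theorem dvd_finrank [Finite F] [FiniteDimensional F V] {p f m r : ℕ} (hF : Nat.card F = p ^ f) (hr : r.Prime)
    (ho : orderOf (p : ZMod r) = f * m) (hf : 0 < f) {y : V ≃ₗ[F] V} (hy : orderOf y = r)
    (hfix : ∀ v, y v = v → v = 0) {U : Submodule F V} (hU : ∀ v ∈ U, y v ∈ U) : m ∣ finrank F U := by
  classical
  have : Finite V := Module.finite_of_finite F
  have : Fintype U := Fintype.ofFinite U
  have := Fact.mk hr
  let g : Function.End U := fun v => ⟨y v, hU v v.2⟩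
  have hg : ∀ (k : ℕ) (v : U), ((g ^ k) v : V) = (y ^ k) v := by
    intro k
    induction k with
    | zero => intro v; rfl
    | succ k ih =>
      intro v
      rw [pow_succ', pow_succ']
      change y ((g ^ k) v : V) = y ((y ^ k) (v : V))
      rw [ih]
  have hgr : g ^ r ^ 1 = 1 := by
    funext v
    apply Subtype.ext
    rw [pow_one, hg, ← hy, pow_orderOf_eq_one]
    rfl
  have h1 := Equiv.Perm.card_fixedPoints_modEq hgr
  have h2 : Fintype.card (Function.fixedPoints g) = 1 := by
    rw [Fintype.card_eq_one_iff]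
    refine ⟨⟨0, Subtype.ext (by change y ((0 : U) : V) = _; simp)⟩, ?_⟩
    rintro ⟨v, hv⟩
    apply Subtype.ext
    apply Subtype.ext
    exact hfix v (congrArg Subtype.val hv)
  rw [h2, ← Nat.card_eq_fintype_card, Module.natCard_eq_pow_finrank (K := F), hF, ← pow_mul] at h1
  have h3 : ((p : ZMod r)) ^ (f * finrank F U) = 1 := by
    have h4 := (ZMod.natCast_eq_natCast_iff _ _ _).2 h1
    rwa [Nat.cast_pow, Nat.cast_one] at h4
  have h4 := orderOf_dvd_of_pow_eq_one h3
  rw [ho] at h4
  exact Nat.dvd_of_mul_dvd_mul_left hf h4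

end basic

end Cfsg.Agent.H376.Rg920
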