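import Cfsg.Agent.H376.Rg920.ExtA

/-!
# S3691, piece B (`StmtExt`) for helper920, II : `F[y]` is a field of degree `m` (helper376)
-/

set_option autoImplicit false

open Cfsg Matrix Module

namespace Cfsg.Agent.H376.Rg920

universe u v w

section field

variable {F : Type u} {V : Type v} [Field F] [AddCommGroup V] [Module F V]

/-- the configuration -/
structure Cfg (F : Type u) (V : Type v) [Field F] [AddCommGroup V] [Module F V] (p f m r : ℕ) (y g : V ≃ₗ[F] V) : Prop where
  fin : Finite F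
  fd : FiniteDimensional F V
  hp : p.Prime
  hF : Nat.card F = p ^ f
  hr : r.Prime
  ho : orderOf (p : ZMod r) = f * m
  hf : 0 < f
  hm : 0 < m
  hV : finrank F V = 2 * m
  hy : orderOf y = r
  hfix : ∀ v, y v = v → v = 0
  hc : g * y = y * g
  hg : orderOf g = p

variable {p f m r : ℕ} {y g : V ≃ₗ[F] V}

theorem Cfg.charP (H : Cfg F V p f m r y g) : CharP F p := by
  have := H.fin
  have := Fintype.ofFinite F
  have := Fact.mk H.hp
  have h1 := H.hF
  rw [Nat.card_eq_fintype_card] at h1
  exact charP_of_card_eq_prime_pow h1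

/-- the nilpotent operator -/
def NN (g : V ≃ₗ[F] V) : Module.End F V := (g : V →ₗ[F] V) - 1

theorem NN_apply (g : V ≃ₗ[F] V) (v : V) : NN g v = g v - v := rfl

theorem Cfg.nontrivial (H : Cfg F V p f m r y g) : Nontrivial V := by
  have := H.fd
  refine Module.nontrivial_of_finrank_pos (R := F) ?_
  rw [H.hV]
  have := H.hm
  omega

theorem coe_pow (h : V ≃ₗ[F] V) (k : ℕ) : ((h ^ k : V ≃ₗ[F] V) : V →ₗ[F] V) = (h : V →ₗ[F] V) ^ k := by
  induction k with
  | zero => rfl
  | succ k ih =>
    rw [pow_succ, pow_succ, ← ih]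
    rfl

theorem Cfg.NN_pow (H : Cfg F V p f m r y g) : NN g ^ p = 0 := by
  have := H.charP
  have := Fact.mk H.hp
  have := H.nontrivial
  have h0 : CharP (Module.End F V) p := charP_of_injective_algebraMap (FaithfulSMul.algebraMap_injective F (Module.End F V)) p
  have h1 := sub_pow_char_of_commute p (x := (g : V →ₗ[F] V)) (y := (1 : Module.End F V)) (Commute.one_right _)
  have h2 : (g : Module.End F V) ^ p = 1 := by
    have h3 := coe_pow g p
    rw [← H.hg, pow_orderOf_eq_one] at h3
    rw [← H.hg]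
    exact h3.symm
  rw [h2, one_pow, sub_self] at h1
  exact h1

theorem Cfg.NN_ne (H : Cfg F V p f m r y g) : NN g ≠ 0 := by
  intro h
  have h1 : g = 1 := by
    ext v
    have h2 := congrArg (fun (X : Module.End F V) => X v) h
    change g v - v = 0 at h2
    exact sub_eq_zero.1 h2
  have h2 := H.hg
  rw [h1, orderOf_one] at h2
  exact H.hp.one_lt.ne h2

theorem Cfg.y_comm (H : Cfg F V p f m r y g) : NN g * (y : V →ₗ[F] V) = (y : V →ₗ[F] V) * NN g := by
  ext v
  change g (y v) - y v = y (g v - v)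
  have h1 : (g * y) v = (y * g) v := by rw [H.hc]
  change g (y v) = y (g v) at h1
  rw [h1, map_sub]

theorem Cfg.dvd (H : Cfg F V p f m r y g) {U : Submodule F V} (hU : ∀ v ∈ U, y v ∈ U) : m ∣ finrank F U := by
  have := H.fin
  have := H.fd
  exact dvd_finrank H.hF H.hr H.ho H.hf H.hy H.hfix hU

/-- a nonzero `N`-invariant subspace meets the kernel of `N` -/
theorem exists_ker {N : Module.End F V} {k : ℕ} (hN : N ^ k = 0) {K : Submodule F V} (hK : ∀ v ∈ K, N v ∈ K) (hne : K ≠ ⊥) :
    ∃ v ∈ K, v ≠ 0 ∧ N v = 0 := by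
  classical
  obtain ⟨v, hv, hv0⟩ := K.ne_bot_iff.1 hne
  have hex : ∃ j, (N ^ j) v = 0 := ⟨k, by rw [hN]; rfl⟩
  have h1 := Nat.find_spec hex
  have h2 : Nat.find hex ≠ 0 := by
    intro h
    rw [h] at h1
    exact hv0 h1
  obtain ⟨j, hj⟩ := Nat.exists_eq_succ_of_ne_zero h2
  have h3 : (N ^ j) v ≠ 0 := Nat.find_min hex (by omega)
  have h4 : ∀ i, (N ^ i) v ∈ K := by
    intro i
    induction i with
    | zero => exact hv
    | succ i ih => rw [pow_succ']; exact hK _ ih
  refine ⟨(N ^ j) v, h4 j, h3, ?_⟩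
  rw [hj, Nat.succ_eq_add_one, pow_succ'] at h1
  exact h1

/-- `y`- and `N`-invariant subspaces of dimension `m` are `ker N` -/
theorem Cfg.eq_ker (H : Cfg F V p f m r y g) {K : Submodule F V} (hKy : ∀ v ∈ K, y v ∈ K) (hKN : ∀ v ∈ K, NN g v ∈ K)
    (hK : finrank F K = m) : K = LinearMap.ker (NN g) := by
  have := H.fd
  have hm := H.hm
  have hkery : ∀ v ∈ LinearMap.ker (NN g), y v ∈ LinearMap.ker (NN g) := by
    intro v hv
    rw [LinearMap.mem_ker] at hv ⊢
    have h1 : (NN g * (y : V →ₗ[F] V)) v = ((y : V →ₗ[F] V) * NN g) v := by rw [H.y_comm]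
    change NN g (y v) = y (NN g v) at h1
    rw [h1, hv, map_zero]
  have hne : K ≠ ⊥ := by
    intro h
    rw [h, finrank_bot] at hK
    omega
  have h1 : K ≤ LinearMap.ker (NN g) := by
    have h2 : K ⊓ LinearMap.ker (NN g) = K := by
      refine Submodule.eq_of_le_of_finrank_le inf_le_left ?_
      have h3 : m ∣ finrank F (K ⊓ LinearMap.ker (NN g) : Submodule F V) :=
        H.dvd (fun v hv => ⟨hKy v hv.1, hkery v hv.2⟩)
      have h4 : 0 < finrank F (K ⊓ LinearMap.ker (NN g) : Submodule F V) := by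
        rw [Module.finrank_pos_iff, Submodule.nontrivial_iff_ne_bot, Submodule.ne_bot_iff]
        obtain ⟨v, hv, hv0, hNv⟩ := exists_ker H.NN_pow hKN hne
        exact ⟨v, ⟨hv, hNv⟩, hv0⟩
      rw [hK]
      exact Nat.le_of_dvd h4 h3
    exact inf_eq_left.1 h2
  refine Submodule.eq_of_le_of_finrank_le h1 ?_
  rw [hK]
  have h5 : m ∣ finrank F (LinearMap.ker (NN g)) := H.dvd hkery
  have h6 : finrank F (LinearMap.ker (NN g)) < finrank F V := by
    refine Submodule.finrank_lt ?_
    rw [Ne, LinearMap.ker_eq_top]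
    exact H.NN_ne
  rw [H.hV] at h6
  obtain ⟨k, hk⟩ := h5
  rw [hk] at h6 ⊢
  have h7 : k < 2 := by
    by_contra hcon
    have : m * 2 ≤ m * k := Nat.mul_le_mul_left m (by omega)
    omega
  interval_cases k <;> omega

theorem Cfg.r_ne (H : Cfg F V p f m r y g) : (p : ZMod r) ^ (f * m) = 1 := by
  rw [← H.ho, pow_orderOf_eq_one]

theorem Cfg.y_pow (H : Cfg F V p f m r y g) : (y : Module.End F V) ^ p ^ (f * m) = (y : V →ₗ[F] V) := by
  rw [← coe_pow]
  congr 1
  have h1 : (p ^ (f * m) : ℕ) ≡ 1 [MOD r] := by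
    rw [← ZMod.natCast_eq_natCast_iff, Nat.cast_pow, Nat.cast_one]
    exact H.r_ne
  have h2 : y ^ p ^ (f * m) = y ^ 1 := by
    rw [pow_eq_pow_iff_modEq, H.hy]
    exact h1
  rw [h2, pow_one]

theorem Cfg.pow_eq (H : Cfg F V p f m r y g) {a : Module.End F V} (ha : a ∈ AY y) : a ^ p ^ (f * m) = a := by
  have := H.fin
  have := Fintype.ofFinite F
  have := H.charP
  have := Fact.mk H.hp
  have := H.nontrivial
  have h0 : CharP (Module.End F V) p := charP_of_injective_algebraMap (FaithfulSMul.algebraMap_injective F (Module.End F V)) p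
  induction ha using Algebra.adjoin_induction with
  | mem x hx =>
    rw [Set.mem_singleton_iff] at hx
    subst hx
    exact H.y_pow
  | algebraMap c =>
    rw [← map_pow]
    congr 1
    have h1 := FiniteField.pow_card_pow m c
    rw [← Nat.card_eq_fintype_card, H.hF, ← pow_mul] at h1
    exact h1
  | add x y hx' hy' hx hy =>
    rw [add_pow_char_pow_of_commute _ _ (comm_AY hx' hy'), hx, hy]
  | mul x y hx' hy' hx hy =>
    rw [Commute.mul_pow (comm_AY hx' hy'), hx, hy]

theorem Cfg.N_comm (H : Cfg F V p f m r y g) {a : Module.End F V} (ha : a ∈ AY y) (v : V) : NN g (a v) = a (NN g v) := by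
  have h1 := comm_of_mem H.y_comm ha
  exact congrArg (fun (X : Module.End F V) => X v) h1

theorem Cfg.inj (H : Cfg F V p f m r y g) {a : Module.End F V} (ha : a ∈ AY y) (ha0 : a ≠ 0) : LinearMap.ker a = ⊥ := by
  have := H.fd
  have hm := H.hm
  have hkery : ∀ v ∈ LinearMap.ker a, y v ∈ LinearMap.ker a := by
    intro v hv
    rw [LinearMap.mem_ker] at hv ⊢
    have h1 : (a * (y : V →ₗ[F] V)) v = ((y : V →ₗ[F] V) * a) v := by rw [comm_AY ha (y_mem y)]
    change a (y v) = y (a v) at h1
    rw [h1, hv, map_zero]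
  have hkerN : ∀ v ∈ LinearMap.ker a, NN g v ∈ LinearMap.ker a := by
    intro v hv
    rw [LinearMap.mem_ker] at hv ⊢
    rw [← H.N_comm ha, hv, map_zero]
  have hrany : ∀ v ∈ LinearMap.range a, y v ∈ LinearMap.range a := by
    rintro _ ⟨v, rfl⟩
    have h1 : (a * (y : V →ₗ[F] V)) v = ((y : V →ₗ[F] V) * a) v := by rw [comm_AY ha (y_mem y)]
    exact ⟨y v, h1⟩
  have hranN : ∀ v ∈ LinearMap.range a, NN g v ∈ LinearMap.range a := by
    rintro _ ⟨v, rfl⟩
    exact ⟨NN g v, (H.N_comm ha v).symm⟩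
  have h1 := H.dvd hkery
  have h2 : finrank F (LinearMap.ker a) < finrank F V := by
    refine Submodule.finrank_lt ?_
    rw [Ne, LinearMap.ker_eq_top]
    exact ha0
  rw [H.hV] at h2
  obtain ⟨k, hk⟩ := h1
  rw [hk] at h2
  have h7 : k < 2 := by
    by_contra hcon
    have : m * 2 ≤ m * k := Nat.mul_le_mul_left m (by omega)
    omega
  interval_cases k
  · rw [mul_zero] at hk
    exact Submodule.finrank_eq_zero.1 hk
  · exfalso
    rw [mul_one] at hk
    have h8 := H.eq_ker hkery hkerN hk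
    have h9 : finrank F (LinearMap.range a) = m := by
      have := LinearMap.finrank_range_add_finrank_ker a
      rw [H.hV, hk] at this
      omega
    have h10 := H.eq_ker hrany hranN h9
    have h11 : a * a = 0 := by
      ext v
      have : a v ∈ LinearMap.ker a := by
        rw [h8, ← h10]
        exact ⟨v, rfl⟩
      exact this
    have h12 := H.pow_eq ha
    have h13 : 2 ≤ p ^ (f * m) := by
      calc 2 ≤ p := H.hp.two_le
        _ = p ^ 1 := (pow_one p).symm
        _ ≤ p ^ (f * m) := Nat.pow_le_pow_right H.hp.pos (Nat.mul_pos H.hf hm)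
    obtain ⟨j, hj⟩ := Nat.exists_eq_add_of_le h13
    rw [hj, pow_add, pow_two, h11, zero_mul] at h12
    exact ha0 h12.symm

theorem Cfg.isField (H : Cfg F V p f m r y g) : IsField (AY y) := by
  have := H.nontrivial
  have hm := H.hm
  refine ⟨⟨0, 1, ?_⟩, ?_, ?_⟩
  · intro h
    have h1 := congrArg Subtype.val h
    exact zero_ne_one h1
  · intro a b
    exact Subtype.ext (comm_AY a.2 b.2)
  · intro a ha
    have ha' : (a : Module.End F V) ≠ 0 := fun h => ha (Subtype.ext h)
    have h13 : 2 ≤ p ^ (f * m) := by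
      calc 2 ≤ p := H.hp.two_le
        _ = p ^ 1 := (pow_one p).symm
        _ ≤ p ^ (f * m) := Nat.pow_le_pow_right H.hp.pos (Nat.mul_pos H.hf hm)
    obtain ⟨j, hj⟩ := Nat.exists_eq_add_of_le h13
    refine ⟨a ^ j, Subtype.ext ?_⟩
    have h12 := H.pow_eq a.2
    rw [hj, add_comm, pow_succ', pow_succ'] at h12
    have h14 : (a : Module.End F V) * ((a : Module.End F V) * (a : Module.End F V) ^ j - 1) = 0 := by
      rw [mul_sub, h12, mul_one, sub_self]
    ext v
    have h15 : ((a : Module.End F V) * (a : Module.End F V) ^ j - 1) v ∈ LinearMap.ker (a : Module.End F V) :=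
      congrArg (fun (X : Module.End F V) => X v) h14
    rw [H.inj a.2 ha', Submodule.mem_bot] at h15
    exact sub_eq_zero.1 h15

theorem Cfg.finrank_AY (H : Cfg F V p f m r y g) : finrank F (AY y) = m := by
  have := H.fd
  have := H.nontrivial
  have hm := H.hm
  have hne : (⊤ : Submodule F V) ≠ ⊥ := by
    intro h
    have h1 : finrank F (⊤ : Submodule F V) = finrank F V := finrank_top F V
    rw [h, finrank_bot, H.hV] at h1
    omega
  obtain ⟨v, -, hv0, hNv⟩ := exists_ker H.NN_pow (K := ⊤) (fun _ _ => trivial) hne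
  let ev : (AY y) →ₗ[F] V := (LinearMap.applyₗ v).comp (AY y).val.toLinearMap
  have hev : ∀ a : AY y, ev a = (a : Module.End F V) v := fun a => rfl
  have hinj : Function.Injective ev := by
    rw [injective_iff_map_eq_zero]
    intro a ha
    by_contra hcon
    have h1 := H.inj a.2 (fun h => hcon (Subtype.ext h))
    have h2 : v ∈ LinearMap.ker (a : Module.End F V) := ha
    rw [h1, Submodule.mem_bot] at h2
    exact hv0 h2
  have h1 : finrank F (LinearMap.range ev) = finrank F (AY y) := LinearMap.finrank_range_of_inj hinj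
  have h2 : m ∣ finrank F (LinearMap.range ev) := by
    refine H.dvd ?_
    rintro _ ⟨a, rfl⟩
    exact ⟨⟨y, y_mem y⟩ * a, rfl⟩
  have h3 : LinearMap.range ev ≤ LinearMap.ker (NN g) := by
    rintro _ ⟨a, rfl⟩
    rw [LinearMap.mem_ker, hev, H.N_comm a.2, hNv, map_zero]
  have h4 : 0 < finrank F (LinearMap.range ev) := by
    rw [h1]
    have : Nontrivial (AY y) := ⟨⟨0, 1, fun h => zero_ne_one (congrArg Subtype.val h)⟩⟩
    exact Module.finrank_pos
  have h5 := Submodule.finrank_mono h3
  have h6 : finrank F (LinearMap.ker (NN g)) < finrank F V := by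
    refine Submodule.finrank_lt ?_
    rw [Ne, LinearMap.ker_eq_top]
    exact H.NN_ne
  rw [H.hV] at h6
  rw [h1] at h2 h4 h5
  obtain ⟨k, hk⟩ := h2
  rw [hk] at h4 h5 ⊢
  have h7 : k < 2 := by
    by_contra hcon
    have : m * 2 ≤ m * k := Nat.mul_le_mul_left m (by omega)
    omega
  interval_cases k <;> omega

end field

end Cfsg.Agent.H376.Rg920
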