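import Cfsg.Agent.H376.Rg920.ExtB

/-!
# S3691, piece B (`StmtExt`) for helper920, III : the embedding in `GL₂(E)` (helper376)
-/

set_option autoImplicit false

open Cfsg Matrix Module

namespace Cfsg.Agent.H376.Rg920

universe u v w

section abs

variable {F : Type u} {V : Type v} [Field F] [AddCommGroup V] [Module F V]

/-- the centraliser acts `E`-linearly -/
theorem centr_comm {y : V ≃ₗ[F] V} (z : Subgroup.centralizer ({y} : Set (V ≃ₗ[F] V))) {a : Module.End F V} (ha : a ∈ AY y)
    (v : V) : (z : V ≃ₗ[F] V) (a v) = a ((z : V ≃ₗ[F] V) v) := by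
  have h1 : (((z : V ≃ₗ[F] V) : V →ₗ[F] V) : Module.End F V) * (y : V →ₗ[F] V) = (y : V →ₗ[F] V) * ((z : V ≃ₗ[F] V) : V →ₗ[F] V) := by
    ext v
    have h2 := Subgroup.mem_centralizer_iff.1 z.2 y rfl
    exact (congrArg (fun (X : V ≃ₗ[F] V) => X v) h2).symm
  exact congrArg (fun (X : Module.End F V) => X v) (comm_of_mem h1 ha)

theorem embed [FiniteDimensional F V] {E : Type w} [Field E] [Algebra F E] {y : V ≃ₗ[F] V} (j : E →ₐ[F] Module.End F V)
    (hj : ∀ e, j e ∈ AY y) (hj' : ∃ e, j e = (y : V →ₗ[F] V)) {m : ℕ} (hm : 0 < m) (hE : finrank F E = m) (hV : finrank F V = 2 * m) :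
    ∃ φ : Subgroup.centralizer ({y} : Set (V ≃ₗ[F] V)) →* GL (Fin 2) E, Function.Injective φ ∧
      ∀ z : Subgroup.centralizer ({y} : Set (V ≃ₗ[F] V)), (z : V ≃ₗ[F] V) = y →
        ∃ c : E, (φ z : Matrix (Fin 2) (Fin 2) E) = Matrix.scalar (Fin 2) c := by
  let _ : Module E V := Module.compHom V (j : E →+* Module.End F V)
  have hsm : ∀ (e : E) (v : V), e • v = j e v := fun e v => rfl
  have : IsScalarTower F E V := ⟨fun a e v => by
    rw [hsm, hsm, map_smul]
    rfl⟩
  have : FiniteDimensional F E := FiniteDimensional.of_finrank_pos (by rw [hE]; exact hm)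
  have : Module.Finite E V := Module.Finite.of_restrictScalars_finite F E V
  have h2 : finrank E V = 2 := by
    have h3 := Module.finrank_mul_finrank F E V
    rw [hE, hV, mul_comm] at h3
    exact Nat.eq_of_mul_eq_mul_right hm h3
  let b : Basis (Fin 2) E V := Module.finBasisOfFinrankEq E V h2
  let ψ0 : Subgroup.centralizer ({y} : Set (V ≃ₗ[F] V)) →* Module.End E V :=
    { toFun := fun z =>
        { toFun := fun v => (z : V ≃ₗ[F] V) v
          map_add' := fun v w => map_add _ v w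
          map_smul' := fun e v => centr_comm z (hj e) v }
      map_one' := rfl
      map_mul' := fun z w => rfl }
  have hψ0 : ∀ z v, ψ0 z v = (z : V ≃ₗ[F] V) v := fun z v => rfl
  let T := LinearMap.toMatrixAlgEquiv b
  let φ := MonoidHom.toHomUnits ((T.toMulEquiv.toMonoidHom).comp ψ0)
  have hφ : ∀ z, ((φ z : (Matrix (Fin 2) (Fin 2) E)ˣ) : Matrix (Fin 2) (Fin 2) E) = T (ψ0 z) := fun z => rfl
  refine ⟨φ, ?_, ?_⟩
  · intro z w hzw
    have h3 : T (ψ0 z) = T (ψ0 w) := by rw [← hφ, ← hφ, hzw]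
    have h4 := T.injective h3
    apply Subtype.ext
    ext v
    rw [← hψ0, ← hψ0, h4]
  · intro z hz
    obtain ⟨e, he⟩ := hj'
    refine ⟨e, ?_⟩
    change T (ψ0 z) = _
    have h3 : ψ0 z = algebraMap E (Module.End E V) e := by
      ext v
      rw [hψ0, Module.algebraMap_end_apply, hsm, he, hz]
      rfl
    rw [h3, T.commutes]
    rfl

end abs

end Cfsg.Agent.H376.Rg920
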